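import Mathlib
import Cfsg.Agent.CoprimeAction.Basic
import Cfsg.Agent.CoprimeAction.Frattini
import Cfsg.Agent.CoprimeAction.Factorization
import Cfsg.Agent.Components.Cores

/-!
A maximal solvable subgroup generated by two conjugates of a subgroup of prime order `p > 3`: its Fitting
subgroup centralizes the coprime parts of any nilpotent subgroup it normalizes, given the bound on fixed
spaces of generators.
-/

set_option autoImplicit false
set_option linter.style.haveILetI false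

open scoped commutatorElement Pointwise

namespace CfsgLib.TwoConjGen

universe u

/-- The fixed space of `P` is less than half of an irreducible faithful module. -/
def HalfBound (p : ℕ) : Prop :=
  ∀ {G : Type u} [Group G] [Finite G] [Group.IsSolvable G] (P : Subgroup G), Nat.card P = p →
    Subgroup.normalClosure (P : Set G) = ⊤ → ∀ (r : ℕ) [Fact r.Prime] {V : Type u} [AddCommGroup V]
    [Module (ZMod r) V] [FiniteDimensional (ZMod r) V] (ρ : Representation (ZMod r) G V) [ρ.IsIrreducible],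
    Function.Injective ρ →
    2 * Module.finrank (ZMod r) ↥(⨅ g : ↥P, LinearMap.ker (ρ (g : G) - LinearMap.id)) < Module.finrank (ZMod r) V

/-- A representation from additive maps. -/
def repOfMaps {H : Type*} [Monoid H] {V : Type*} [AddCommGroup V] (r : ℕ) [Module (ZMod r) V] (f : H → (V →+ V))
    (h1 : ∀ v, f 1 v = v) (hm : ∀ x y v, f (x * y) v = f x (f y v)) : Representation (ZMod r) H V where
  toFun x := (f x).toZModLinearMap r
  map_one' := LinearMap.ext h1
  map_mul' x y := LinearMap.ext (hm x y)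

/-- The bound in the language of automorphisms of an abelian group of prime exponent. -/
theorem half_card {p : ℕ} [Fact p.Prime] (hhalf : HalfBound.{u} p) {H : Type u} [Group H] [Finite H]
    [Group.IsSolvable H] (P : Subgroup H) (hP : Nat.card P = p) (hgen : Subgroup.normalClosure (P : Set H) = ⊤)
    (r : ℕ) [Fact r.Prime] {V : Type u} [CommGroup V] [Finite V] [Module (ZMod r) (Additive V)] (φ : H →* MulAut V)
    (hnt : ∃ x, φ x ≠ 1)
    (hirr : ∀ U : Subgroup V, (∀ x, ∀ u ∈ U, φ x u ∈ U) → U = ⊥ ∨ U = ⊤)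
    (C : Subgroup V) (hC : ∀ v, v ∈ C ↔ ∀ y ∈ P, φ y v = v) : Nat.card C * Nat.card C < Nat.card V := by
  classical
  haveI : Module.Finite (ZMod r) (Additive V) := Module.Finite.of_finite
  let ρ₀ : Representation (ZMod r) H (Additive V) :=
    repOfMaps r (fun x => MonoidHom.toAdditive (φ x).toMonoidHom)
      (fun v => Additive.toMul.injective (by
        show φ 1 (Additive.toMul v) = Additive.toMul v
        rw [map_one]; rfl))
      (fun x y v => Additive.toMul.injective (by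
        show φ (x * y) (Additive.toMul v) = φ x (φ y (Additive.toMul v))
        rw [map_mul]; rfl))
  have happ : ∀ x v, ρ₀ x v = Additive.ofMul (φ x (Additive.toMul v)) := fun x v => rfl
  have hker : ∀ x, x ∈ φ.ker → ρ₀ x = 1 := fun x hx => LinearMap.ext fun v => by
    rw [happ, MonoidHom.mem_ker.1 hx]; rfl
  let ρ : Representation (ZMod r) (H ⧸ φ.ker) (Additive V) := QuotientGroup.lift φ.ker ρ₀ hker
  have hmk : ∀ x, ρ (QuotientGroup.mk' φ.ker x) = ρ₀ x := fun x => rfl
  have hρ : Function.Injective ρ := by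
    intro a b hab
    obtain ⟨x, rfl⟩ := QuotientGroup.mk'_surjective φ.ker a
    obtain ⟨y, rfl⟩ := QuotientGroup.mk'_surjective φ.ker b
    rw [hmk, hmk] at hab
    refine QuotientGroup.eq.2 (MonoidHom.mem_ker.2 ?_)
    have : φ x = φ y := MulEquiv.ext fun v => by
      have := LinearMap.congr_fun hab (Additive.ofMul v)
      rw [happ, happ] at this
      exact this
    rw [map_mul, map_inv, this, inv_mul_cancel]
  haveI : ρ.IsIrreducible := by
    obtain ⟨x, hx⟩ := hnt
    obtain ⟨v, hv⟩ : ∃ v : V, v ≠ 1 := by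
      by_contra h
      push Not at h
      exact hx (MulEquiv.ext fun v => by rw [h (φ x v)]; exact (h _).symm)
    haveI : Nontrivial (Subrepresentation ρ) := by
      refine ⟨⟨⊥, fun g w hw => ?_⟩, ⟨⊤, fun g w hw => trivial⟩, fun h => hv ?_⟩
      · rw [Submodule.mem_bot] at hw ⊢; rw [hw, map_zero]
      · have := congrArg Subrepresentation.toSubmodule h
        exact congrArg Additive.toMul ((Submodule.mem_bot (ZMod r)).1 (this.ge (Submodule.mem_top (x := Additive.ofMul v))))
    refine ⟨fun σ => ?_⟩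
    let U : Subgroup V :=
      { carrier := {u | Additive.ofMul u ∈ σ.toSubmodule}
        one_mem' := σ.toSubmodule.zero_mem
        mul_mem' := fun ha hb => σ.toSubmodule.add_mem ha hb
        inv_mem' := fun ha => σ.toSubmodule.neg_mem ha }
    have hU : ∀ x, ∀ u ∈ U, φ x u ∈ U := fun x u hu => σ.apply_mem_toSubmodule (QuotientGroup.mk' φ.ker x) hu
    rcases hirr U hU with h | h
    · left
      refine Subrepresentation.toSubmodule_injective (le_antisymm (fun w hw => ?_) bot_le)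
      have : Additive.toMul w ∈ U := hw
      rw [h, Subgroup.mem_bot] at this
      exact (Submodule.mem_bot _).2 (Additive.toMul.injective this)
    · right
      exact Subrepresentation.toSubmodule_injective (le_antisymm le_top fun w _ =>
        (h.ge (Subgroup.mem_top (Additive.toMul w)) : Additive.toMul w ∈ U))
  haveI : Group.IsSolvable (H ⧸ φ.ker) :=
    Group.isSolvable_of_surjective (f := QuotientGroup.mk' φ.ker) (QuotientGroup.mk'_surjective _)
  set P' := P.map (QuotientGroup.mk' φ.ker)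
  have hgen' : Subgroup.normalClosure (P' : Set (H ⧸ φ.ker)) = ⊤ := by
    rw [Subgroup.coe_map, ← Subgroup.map_normalClosure _ _ (QuotientGroup.mk'_surjective _), hgen,
      Subgroup.map_top_of_surjective _ (QuotientGroup.mk'_surjective _)]
  have hP' : Nat.card P' = p := by
    have hdvd : Nat.card P' ∣ p := hP ▸ Subgroup.card_map_dvd (H := P) (QuotientGroup.mk' φ.ker)
    refine ((Fact.out : p.Prime).eq_one_or_self_of_dvd _ hdvd).resolve_left fun h => ?_
    have hle : P ≤ φ.ker := by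
      have := Subgroup.card_eq_one.1 h
      rwa [Subgroup.map_eq_bot_iff, QuotientGroup.ker_mk'] at this
    obtain ⟨x, hx⟩ := hnt
    exact hx (MonoidHom.mem_ker.1 ((hgen.ge.trans (Subgroup.normalClosure_le_normal hle)) (Subgroup.mem_top x)))
  have hdim := hhalf P' hP' hgen' r ρ hρ
  set Fx := ⨅ g : ↥P', LinearMap.ker (ρ (g : H ⧸ φ.ker) - LinearMap.id)
  have hmem : ∀ v, v ∈ C ↔ Additive.ofMul v ∈ Fx := fun v => by
    rw [hC, Submodule.mem_iInf]
    constructor
    · rintro h ⟨_, y, hy, rfl⟩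
      rw [LinearMap.mem_ker, LinearMap.sub_apply, LinearMap.id_apply, sub_eq_zero, hmk, happ]
      exact congrArg Additive.ofMul (h y hy)
    · intro h y hy
      have := h ⟨QuotientGroup.mk' φ.ker y, y, hy, rfl⟩
      rw [LinearMap.mem_ker, LinearMap.sub_apply, LinearMap.id_apply, sub_eq_zero, hmk, happ] at this
      exact this
  have hcard : Nat.card C = Nat.card Fx := Nat.card_congr
    { toFun := fun v => ⟨Additive.ofMul v.1, (hmem _).1 v.2⟩
      invFun := fun w => ⟨Additive.toMul w.1, (hmem _).2 w.2⟩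
      left_inv := fun _ => rfl
      right_inv := fun _ => rfl }
  rw [hcard, Module.natCard_eq_pow_finrank (K := ZMod r) (V := Fx), show Nat.card V = Nat.card (Additive V) from
    Nat.card_congr Additive.ofMul, Module.natCard_eq_pow_finrank (K := ZMod r) (V := Additive V), Nat.card_zmod,
    ← pow_add, Nat.pow_lt_pow_iff_right (Fact.out : r.Prime).one_lt]
  omega

variable {G : Type u} [Group G] {W M : Subgroup G}

/-- The elements of `W` fixed modulo `M` by all elements of `S`. -/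
def fixMod (W M : Subgroup G) (hM : W ≤ Subgroup.normalizer (M : Set G)) (S : Set G) : Subgroup G where
  carrier := {u | u ∈ W ∧ ∀ q ∈ S, ⁅q, u⁆ ∈ M}
  one_mem' := ⟨W.one_mem, fun q _ => by rw [commutatorElement_one_right]; exact M.one_mem⟩
  mul_mem' := fun {u v} hu hv => ⟨W.mul_mem hu.1 hv.1, fun q hq => by
    rw [show ⁅q, u * v⁆ = ⁅q, u⁆ * (u * ⁅q, v⁆ * u⁻¹) by simp only [commutatorElement_def]; group]
    exact M.mul_mem (hu.2 q hq) ((Subgroup.mem_normalizer_iff.1 (hM hu.1) _).1 (hv.2 q hq))⟩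
  inv_mem' := fun {u} hu => ⟨W.inv_mem hu.1, fun q hq => by
    rw [show ⁅q, u⁻¹⁆ = u⁻¹ * ⁅q, u⁆⁻¹ * u⁻¹⁻¹ by simp only [commutatorElement_def]; group]
    exact (Subgroup.mem_normalizer_iff.1 (hM (W.inv_mem hu.1)) _).1 (M.inv_mem (hu.2 q hq))⟩

theorem conj_mem_of_le {A K : Subgroup G} (h : A ≤ Subgroup.normalizer (K : Set G)) {a k : G} (ha : a ∈ A)
    (hk : k ∈ K) : a * k * a⁻¹ ∈ K :=
  (Subgroup.mem_normalizer_iff.1 (h ha) k).1 hk

variable {p : ℕ}

theorem centralizes [Finite G] [Fact p.Prime] (hhalf : HalfBound.{u} p) (P : Subgroup G) (hP : Nat.card P = p)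
    (A : Subgroup G) (hAsol : Group.IsSolvable ↥A) (a : G) (ha : a ∈ A)
    (hA : A = P ⊔ P.map (MulAut.conj a).toMonoidHom)
    (hmax : ∀ B : Subgroup G, A ≤ B → Group.IsSolvable ↥B →
      (∃ b ∈ B, B = P ⊔ P.map (MulAut.conj b).toMonoidHom) → B = A)
    {q r : ℕ} [Fact q.Prime] [Fact r.Prime] (hqr : q ≠ r)
    (Q : Subgroup G) (hQA : Q ≤ A) (hQn : A ≤ Subgroup.normalizer (Q : Set G)) (hQ : IsPGroup q ↥Q) :
    ∀ (n : ℕ) (W : Subgroup G), Nat.card W = n → IsPGroup r ↥W → A ≤ Subgroup.normalizer (W : Set G) →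
      Q ≤ Subgroup.centralizer (W : Set G) := by
  classical
  intro n
  induction n using Nat.strong_induction_on with
  | _ n ih =>
  intro W hn hW hAW
  subst hn
  have hQW : Q ≤ Subgroup.normalizer (W : Set G) := hQA.trans hAW
  have hcop : ∀ {K : Subgroup G}, IsPGroup r K → (Nat.card Q).Coprime (Nat.card K) := fun hK =>
    IsPGroup.coprime_card_of_ne q r hqr _ _ hQ hK
  -- reduce to `W = [W, Q]`
  set W₀ := ⁅W, Q⁆ with hW₀
  have hW₀le : W₀ ≤ W := CfsgLib.CoprimeAction.commutator_le_of_normalizer hQW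
  have hW₀n : A ≤ Subgroup.normalizer (W₀ : Set G) := fun x hx => by
    rw [Subgroup.mem_normalizer_iff_map_conj_eq, hW₀, Subgroup.map_commutator,
      Subgroup.mem_normalizer_iff_map_conj_eq.1 (hAW hx), Subgroup.mem_normalizer_iff_map_conj_eq.1 (hQn hx)]
  by_cases hlt : W₀ = W
  swap
  · refine CfsgLib.CoprimeAction.le_centralizer_of_chain (hcop (hW.to_le hW₀le)) ?_ le_rfl
    refine ih _ ?_ W₀ rfl (hW.to_le hW₀le) hW₀n
    exact lt_of_le_of_ne (Subgroup.card_le_of_le hW₀le) fun e => hlt (Subgroup.eq_of_le_of_card_ge hW₀le e.ge)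
  rcases eq_or_ne W ⊥ with rfl | hne
  · exact fun x _ => Subgroup.mem_centralizer_iff.2 fun y hy => by
      rw [Subgroup.mem_bot.1 hy, one_mul, mul_one]
  -- a maximal invariant proper subgroup
  set 𝒮 := {M : Subgroup G | M ≤ W ∧ M ≠ W ∧ A ≤ Subgroup.normalizer (M : Set G) ∧ W ≤ Subgroup.normalizer (M : Set G)}
  have hbotN : ∀ K : Subgroup G, K ≤ Subgroup.normalizer ((⊥ : Subgroup G) : Set G) := fun K x _ => by
    rw [Subgroup.mem_normalizer_iff]; intro h; simp [Subgroup.mem_bot]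
  obtain ⟨M, hM⟩ := 𝒮.toFinite.exists_maximal ⟨⊥, bot_le, fun h => hne h.symm, hbotN A, hbotN W⟩
  obtain ⟨hMW, hMne, hMA, hMWn⟩ := hM.prop
  have hmaxM : ∀ K : Subgroup G, M ≤ K → K ≤ W → A ≤ Subgroup.normalizer (K : Set G) →
      W ≤ Subgroup.normalizer (K : Set G) → K = M ∨ K = W := fun K h1 h2 h3 h4 => by
    by_cases h : K = W
    · exact Or.inr h
    · exact Or.inl (le_antisymm (hM.le_of_ge ⟨h2, h, h3, h4⟩ h1) h1)
  have hQM : Q ≤ Subgroup.centralizer (M : Set G) := ih _
    (lt_of_le_of_ne (Subgroup.card_le_of_le hMW) fun e => hMne (Subgroup.eq_of_le_of_card_ge hMW e.ge))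
    M rfl (hW.to_le hMW) hMA
  -- the Frattini subgroup lies in `M`
  set Φ := (frattini ↥W).map W.subtype with hΦ
  have hΦM : Φ ≤ M := by
    have hn1 : A ≤ Subgroup.normalizer (Φ : Set G) := by
      rw [Subgroup.le_normalizer_iff]
      rintro x hx _ ⟨w, hw, rfl⟩
      let c := W.normalizerMonoidHom ⟨x, hAW hx⟩
      refine ⟨c w, ?_, rfl⟩
      exact (SetLike.ext_iff.1 ((inferInstance : (frattini ↥W).Characteristic).fixed c) w).2 hw
    have hn2 : W ≤ Subgroup.normalizer (Φ : Set G) := by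
      rw [Subgroup.le_normalizer_iff]
      rintro x hx _ ⟨w, hw, rfl⟩
      exact ⟨⟨x, hx⟩ * w * ⟨x, hx⟩⁻¹, (inferInstance : (frattini ↥W).Normal).conj_mem w hw _, rfl⟩
    have hjoinN : ∀ {K : Subgroup G}, K ≤ Subgroup.normalizer (M : Set G) → K ≤ Subgroup.normalizer (Φ : Set G) →
        K ≤ Subgroup.normalizer ((M ⊔ Φ : Subgroup G) : Set G) := fun h1 h2 x hx => by
      rw [Subgroup.mem_normalizer_iff_map_conj_eq, Subgroup.map_sup,
        Subgroup.mem_normalizer_iff_map_conj_eq.1 (h1 hx), Subgroup.mem_normalizer_iff_map_conj_eq.1 (h2 hx)]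
    rcases hmaxM (M ⊔ Φ) le_sup_left (sup_le hMW (Subgroup.map_subtype_le _)) (hjoinN hMA hn1)
      (hjoinN hMWn hn2) with h | h
    · exact le_sup_right.trans h.le
    · exfalso
      have h1 : M.subgroupOf W ⊔ frattini ↥W = ⊤ := by
        apply Subgroup.map_injective W.subtype_injective
        rw [Subgroup.map_sup, Subgroup.map_subgroupOf_eq_of_le hMW, ← MonoidHom.range_eq_map, Subgroup.range_subtype, h]
      exact hMne (le_antisymm hMW (Subgroup.subgroupOf_eq_top.1 (frattini_nongenerating h1)))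
  have hcomm : ∀ u ∈ W, ∀ v ∈ W, ⁅u, v⁆ ∈ M := fun u hu v hv =>
    hΦM ⟨⁅(⟨u, hu⟩ : W), ⟨v, hv⟩⁆, CfsgLib.CoprimeAction.commutator_le_frattini' hW
      (Subgroup.commutator_mem_commutator (Subgroup.mem_top _) (Subgroup.mem_top _)), rfl⟩
  have hpow : ∀ u ∈ W, u ^ r ∈ M := fun u hu =>
    hΦM ⟨(⟨u, hu⟩ : W) ^ r, CfsgLib.CoprimeAction.pow_mem_frattini hW _, rfl⟩
  -- `W` centralizes `M`
  have hMZ : W ≤ Subgroup.centralizer (M : Set G) := by
    refine hlt.ge.trans ?_
    rw [hW₀, Subgroup.commutator_le]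
    intro w hw x hx
    rw [commutatorElement_def]
    refine Subgroup.mul_mem _ ?_ (Subgroup.inv_mem _ (hQM hx))
    refine Subgroup.mem_centralizer_iff.2 fun m hm => ?_
    have hm' := Subgroup.mem_centralizer_iff.1 (hQM hx) _
      ((Subgroup.mem_normalizer_iff.1 (hMWn (W.inv_mem hw)) m).1 hm)
    calc m * (w * x * w⁻¹) = w * (w⁻¹ * m * w⁻¹⁻¹ * x) * w⁻¹ := by group
      _ = w * (x * (w⁻¹ * m * w⁻¹⁻¹)) * w⁻¹ := by rw [hm']
      _ = w * x * w⁻¹ * m := by group
  -- `Q` fixes nothing modulo `M`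
  have hinv : ∀ S : Set G, (∀ x ∈ A, ∀ y ∈ S, x⁻¹ * y * x ∈ S) → S ⊆ Subgroup.normalizer (M : Set G) →
      fixMod W M hMWn S = M ∨ fixMod W M hMWn S = W ∨ ¬ M ≤ fixMod W M hMWn S := by
    intro S hS _
    by_cases hMS : M ≤ fixMod W M hMWn S
    swap
    · exact Or.inr (Or.inr hMS)
    refine (hmaxM _ hMS (fun u hu => hu.1) ?_ ?_).imp id Or.inl
    · rw [Subgroup.le_normalizer_iff]
      intro x hx u hu
      refine ⟨conj_mem_of_le hAW hx hu.1, fun y hy => ?_⟩
      rw [show ⁅y, x * u * x⁻¹⁆ = x * ⁅x⁻¹ * y * x, u⁆ * x⁻¹ by simp only [commutatorElement_def]; group]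
      exact conj_mem_of_le hMA hx (hu.2 _ (hS x hx y hy))
    · rw [Subgroup.le_normalizer_iff]
      intro w hw u hu
      have h := hMS (hcomm w hw u hu.1)
      rw [show w * u * w⁻¹ = ⁅w, u⁆ * u by rw [commutatorElement_def]; group]
      exact Subgroup.mul_mem _ h hu
  have hMfix : ∀ S : Set G, S ⊆ Subgroup.normalizer (M : Set G) → M ≤ fixMod W M hMWn S := fun S hS m hm =>
    ⟨hMW hm, fun y hy => by
      rw [commutatorElement_def]
      exact M.mul_mem ((Subgroup.mem_normalizer_iff.1 (hS hy) m).1 hm) (M.inv_mem hm)⟩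
  have hfixQ : fixMod W M hMWn Q = M := by
    have hQN : (Q : Set G) ⊆ Subgroup.normalizer (M : Set G) := fun x hx => hMA (hQA hx)
    rcases hinv (Q : Set G) (fun x hx y hy => by
      have := conj_mem_of_le hQn (A.inv_mem hx) hy
      rwa [inv_inv] at this) hQN with h | h | h
    · exact h
    · exfalso
      refine hMne (le_antisymm hMW (hlt.ge.trans ?_))
      rw [hW₀, Subgroup.commutator_le]
      intro w hw x hx
      rw [← commutatorElement_inv]
      exact M.inv_mem ((h.ge hw).2 x hx)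
    · exact absurd (hMfix _ hQN) h
  -- the module
  set M' := M.subgroupOf W with hM'
  haveI hM'n : M'.Normal := ⟨fun m hm w => Subgroup.mem_subgroupOf.2
    (conj_mem_of_le hMWn w.2 (Subgroup.mem_subgroupOf.1 hm))⟩
  letI : CommGroup (↥W ⧸ M') :=
    { (inferInstance : Group (↥W ⧸ M')) with
      mul_comm := fun x y => by
        obtain ⟨x, rfl⟩ := QuotientGroup.mk'_surjective M' x
        obtain ⟨y, rfl⟩ := QuotientGroup.mk'_surjective M' y
        rw [← commutatorElement_eq_one_iff_mul_comm, ← map_commutatorElement]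
        exact (QuotientGroup.eq_one_iff _).2 (Subgroup.mem_subgroupOf.2 (hcomm x x.2 y y.2)) }
  have hV : ∀ v : ↥W ⧸ M', v ^ r = 1 := fun v => by
    obtain ⟨x, rfl⟩ := QuotientGroup.mk'_surjective M' v
    rw [← map_pow]
    exact (QuotientGroup.eq_one_iff _).2 (Subgroup.mem_subgroupOf.2 (hpow x x.2))
  let act : ↥A → (↥W ⧸ M' →* ↥W ⧸ M') := fun x =>
    QuotientGroup.map M' M' (W.normalizerMonoidHom ⟨x, hAW x.2⟩).toMonoidHom fun w hw =>
      Subgroup.mem_subgroupOf.2 (show (x : G) * (w : G) * (x : G)⁻¹ ∈ M from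
        conj_mem_of_le hMA x.2 (Subgroup.mem_subgroupOf.1 hw))
  have hact : ∀ (x : ↥A) (w : ↥W), act x (QuotientGroup.mk' M' w) =
      QuotientGroup.mk' M' ⟨(x : G) * w * (x : G)⁻¹, conj_mem_of_le hAW x.2 w.2⟩ := fun x w => rfl
  have hcomp : ∀ x y v, act (x * y) v = act x (act y v) := fun x y v => by
    obtain ⟨w, rfl⟩ := QuotientGroup.mk'_surjective M' v
    rw [hact, hact, hact]
    congr 1; exact Subtype.ext (by simp [mul_assoc])
  have hone : ∀ v, act 1 v = v := fun v => by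
    obtain ⟨w, rfl⟩ := QuotientGroup.mk'_surjective M' v
    rw [hact]
    congr 1; exact Subtype.ext (by simp)
  let φ : ↥A →* MulAut (↥W ⧸ M') := MonoidHom.mk'
    (fun x => { toFun := act x
                invFun := act x⁻¹
                left_inv := fun v => by rw [← hcomp, inv_mul_cancel, hone]
                right_inv := fun v => by rw [← hcomp, mul_inv_cancel, hone]
                map_mul' := map_mul (act x) })
    fun x y => MulEquiv.ext fun v => hcomp x y v
  have hfix : ∀ (x : ↥A) (w : ↥W), φ x (QuotientGroup.mk' M' w) = QuotientGroup.mk' M' w ↔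
      ⁅(x : G), (w : G)⁆ ∈ M := fun x w => by
    show act x (QuotientGroup.mk' M' w) = _ ↔ _
    rw [hact, ← mul_inv_eq_one, ← map_inv, ← map_mul, QuotientGroup.mk'_apply,
      QuotientGroup.eq_one_iff, Subgroup.mem_subgroupOf, commutatorElement_def]
    rfl
  have hnt : ∃ x, φ x ≠ 1 := by
    by_contra h
    push Not at h
    refine hMne (le_antisymm hMW fun w hw => hfixQ.le ⟨hw, fun x hx => ?_⟩)
    refine (hfix ⟨x, hQA hx⟩ ⟨w, hw⟩).1 ?_
    rw [h]; rfl
  have hirr : ∀ U : Subgroup (↥W ⧸ M'), (∀ x, ∀ u ∈ U, φ x u ∈ U) → U = ⊥ ∨ U = ⊤ := by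
    intro U hU
    set K := (U.comap (QuotientGroup.mk' M')).map W.subtype with hK
    have hMK : M ≤ K := fun m hm => ⟨⟨m, hMW hm⟩, by
      show QuotientGroup.mk' M' ⟨m, hMW hm⟩ ∈ U
      rw [show QuotientGroup.mk' M' ⟨m, hMW hm⟩ = 1 from (QuotientGroup.eq_one_iff _).2 (Subgroup.mem_subgroupOf.2 hm)]
      exact U.one_mem, rfl⟩
    have hK1 : A ≤ Subgroup.normalizer (K : Set G) := by
      rw [Subgroup.le_normalizer_iff]
      rintro x hx _ ⟨w, hw, rfl⟩
      exact ⟨⟨x * w * x⁻¹, conj_mem_of_le hAW hx w.2⟩, hU ⟨x, hx⟩ _ hw, rfl⟩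
    have hK2 : W ≤ Subgroup.normalizer (K : Set G) := by
      rw [Subgroup.le_normalizer_iff]
      intro w hw u hu
      rw [show w * u * w⁻¹ = ⁅w, u⁆ * u by rw [commutatorElement_def]; group]
      exact K.mul_mem (hMK (hcomm w hw u (Subgroup.map_subtype_le _ hu))) hu
    rcases hmaxM K hMK (Subgroup.map_subtype_le _) hK1 hK2 with h | h
    · left
      rw [eq_bot_iff]
      intro v hv
      obtain ⟨w, rfl⟩ := QuotientGroup.mk'_surjective M' v
      exact Subgroup.mem_bot.2 ((QuotientGroup.eq_one_iff _).2 (Subgroup.mem_subgroupOf.2 (h.le ⟨w, hv, rfl⟩)))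
    · right
      rw [eq_top_iff]
      intro v _
      obtain ⟨w, rfl⟩ := QuotientGroup.mk'_surjective M' v
      obtain ⟨w', hw', he⟩ := h.ge w.2
      exact (Subtype.ext he : w' = w) ▸ hw'
  -- the image of `P`
  have hPA : P ≤ A := hA ▸ le_sup_left
  haveI : Group.IsSolvable ↥A := hAsol
  have hgen : Subgroup.normalClosure (P.subgroupOf A : Set ↥A) = ⊤ := by
    set N := Subgroup.normalClosure (P.subgroupOf A : Set ↥A) with hN
    have hN1 : P.subgroupOf A ≤ N := fun x hx => Subgroup.subset_normalClosure hx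
    rw [eq_top_iff]
    intro x _
    have hle : A ≤ N.map A.subtype := by
      conv_lhs => rw [hA]
      refine sup_le (fun y hy => ⟨⟨y, hPA hy⟩, hN1 (Subgroup.mem_subgroupOf.2 hy), rfl⟩) ?_
      rintro _ ⟨y, hy, rfl⟩
      exact ⟨⟨a, ha⟩ * ⟨y, hPA hy⟩ * ⟨a, ha⟩⁻¹,
        (inferInstance : N.Normal).conj_mem _ (hN1 (Subgroup.mem_subgroupOf.2 hy)) _, rfl⟩
    obtain ⟨y, hy, he⟩ := hle x.2
    exact (Subtype.ext he : y = x) ▸ hy
  have hPM : (P : Set G) ⊆ Subgroup.normalizer (M : Set G) := fun x hx => hMA (hPA hx)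
  set C := fixMod W M hMWn P
  set S' : Set G := (fun y => a * y * a⁻¹) '' (P : Set G)
  set C' := fixMod W M hMWn S'
  set Cb := (C.subgroupOf W).map (QuotientGroup.mk' M') with hCb
  have hCmem : ∀ w : W, QuotientGroup.mk' M' w ∈ Cb ↔ (w : G) ∈ C := fun w => by
    refine ⟨?_, fun h => ⟨w, Subgroup.mem_subgroupOf.2 h, rfl⟩⟩
    rintro ⟨u, hu, he⟩
    have h1 : (u : G)⁻¹ * w ∈ M := Subgroup.mem_subgroupOf.1 (QuotientGroup.eq.1 he)
    have h2 := C.mul_mem (Subgroup.mem_subgroupOf.1 hu) (hMfix _ hPM h1)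
    rwa [mul_inv_cancel_left] at h2
  letI : Module (ZMod r) (Additive (↥W ⧸ M')) := AddCommGroup.zmodModule (fun v => Additive.toMul.injective (by
    rw [toMul_nsmul]; exact hV _))
  have hbound := half_card hhalf (P.subgroupOf A)
    ((Nat.card_congr (Subgroup.subgroupOfEquivOfLe hPA).toEquiv).trans hP) hgen r φ hnt hirr Cb fun v => by
      obtain ⟨w, rfl⟩ := QuotientGroup.mk'_surjective M' v
      rw [hCmem]
      refine ⟨fun h y hy => (hfix y w).2 (h.2 _ (Subgroup.mem_subgroupOf.1 hy)),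
        fun h => ⟨w.2, fun y hy => (hfix ⟨y, hPA hy⟩ w).1 (h _ (Subgroup.mem_subgroupOf.2 hy))⟩⟩
  -- a good translate
  obtain ⟨w, hwW, hw⟩ : ∃ w ∈ W, ∀ c ∈ C, ∀ c' ∈ C', w ≠ c * c' := by
    by_contra hcon
    push Not at hcon
    let ψ : Cb × Cb → ↥W ⧸ M' := fun z => (z.1 : ↥W ⧸ M') * φ ⟨a, ha⟩ z.2
    have hψ : Function.Surjective ψ := by
      intro v
      obtain ⟨w, rfl⟩ := QuotientGroup.mk'_surjective M' v
      obtain ⟨c, hc, c', hc', he⟩ := hcon w w.2
      have hc'' : a⁻¹ * c' * a⁻¹⁻¹ ∈ C := ⟨conj_mem_of_le hAW (A.inv_mem ha) hc'.1, fun y hy => by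
        rw [show ⁅y, a⁻¹ * c' * a⁻¹⁻¹⁆ = a⁻¹ * ⁅a * y * a⁻¹, c'⁆ * a⁻¹⁻¹ by
          simp only [commutatorElement_def]; group]
        exact conj_mem_of_le hMA (A.inv_mem ha) (hc'.2 _ ⟨y, hy, rfl⟩)⟩
      refine ⟨(⟨_, (hCmem ⟨c, hc.1⟩).2 hc⟩, ⟨_, (hCmem ⟨_, hc''.1⟩).2 hc''⟩), ?_⟩
      show _ * act ⟨a, ha⟩ (QuotientGroup.mk' M' _) = _
      rw [hact, ← map_mul]
      congr 1
      exact Subtype.ext (by simp only [Subgroup.coe_mul]; rw [he]; group)
    have h1 := Nat.card_le_card_of_surjective ψ hψ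
    rw [Nat.card_prod] at h1
    omega
  -- the subgroup generated by two conjugates
  set b := w * a with hb
  set B := P ⊔ P.map (MulAut.conj b).toMonoidHom with hB
  set X := A ⊔ W with hX
  have hBX : B ≤ X := by
    refine sup_le (hPA.trans le_sup_left) ?_
    rintro _ ⟨y, hy, rfl⟩
    show b * y * b⁻¹ ∈ X
    have hbX : b ∈ X := X.mul_mem (Subgroup.mem_sup_right hwW) (Subgroup.mem_sup_left ha)
    exact X.mul_mem (X.mul_mem hbX (Subgroup.mem_sup_left (hPA hy))) (X.inv_mem hbX)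
  have hBW : A ≤ B ⊔ W := by
    rw [hA]
    refine sup_le (le_sup_left.trans le_sup_left) ?_
    rintro _ ⟨y, hy, rfl⟩
    show a * y * a⁻¹ ∈ B ⊔ W
    rw [show a * y * a⁻¹ = w⁻¹ * (b * y * b⁻¹) * w by rw [hb]; group]
    exact Subgroup.mul_mem _ (Subgroup.mul_mem _ (Subgroup.mem_sup_right (W.inv_mem hwW))
      (Subgroup.mem_sup_left (Subgroup.mem_sup_right ⟨y, hy, rfl⟩))) (Subgroup.mem_sup_right hwW)
  have hXW : X ≤ Subgroup.normalizer (W : Set G) := sup_le hAW Subgroup.le_normalizer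
  have hXM : X ≤ Subgroup.normalizer (M : Set G) := sup_le hMA hMWn
  set D := B ⊓ W with hD
  have hBD : B ≤ Subgroup.normalizer (D : Set G) := by
    rw [Subgroup.le_normalizer_iff]
    intro x hx d hd
    exact ⟨B.mul_mem (B.mul_mem hx hd.1) (B.inv_mem hx), conj_mem_of_le hXW (hBX hx) hd.2⟩
  by_cases hDM : D ≤ M
  · exfalso
    -- `B` normalizes a Sylow subgroup of `Q W` modulo `M`
    set Y := Q ⊔ W with hY
    have hYX : Y ≤ X := sup_le (hQA.trans le_sup_left) le_sup_right
    have hXY : X ≤ Subgroup.normalizer (Y : Set G) := by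
      refine sup_le ?_ ((le_sup_right : W ≤ Y).trans Subgroup.le_normalizer)
      intro x hx
      rw [Subgroup.mem_normalizer_iff_map_conj_eq, hY, Subgroup.map_sup,
        Subgroup.mem_normalizer_iff_map_conj_eq.1 (hQn hx), Subgroup.mem_normalizer_iff_map_conj_eq.1 (hAW hx)]
    set E := (B ⊓ Y) ⊔ M with hE
    have hBE : B ≤ Subgroup.normalizer (E : Set G) := by
      intro x hx
      have h1 : (B ⊓ Y).map (((MulAut.conj x : MulAut G)) : G →* G) = B ⊓ Y := by
        refine le_antisymm ?_ ?_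
        · rintro _ ⟨d, hd, rfl⟩
          exact ⟨B.mul_mem (B.mul_mem hx hd.1) (B.inv_mem hx), conj_mem_of_le hXY (hBX hx) hd.2⟩
        · intro d hd
          refine ⟨x⁻¹ * d * x⁻¹⁻¹, ⟨B.mul_mem (B.mul_mem (B.inv_mem hx) hd.1) (B.inv_mem (B.inv_mem hx)),
            conj_mem_of_le hXY (X.inv_mem (hBX hx)) hd.2⟩, ?_⟩
          show x * (x⁻¹ * d * x⁻¹⁻¹) * x⁻¹ = d
          group
      rw [Subgroup.mem_normalizer_iff_map_conj_eq, hE, Subgroup.map_sup, h1,
        Subgroup.mem_normalizer_iff_map_conj_eq.1 (hXM (hBX hx))]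
    have hEcover : Q ≤ E ⊔ W := by
      intro x hx
      obtain ⟨e, he, v, hv, hev⟩ := CfsgLib.CoprimeAction.exists_mul_of_mem_sup (A := B) (K := W)
        (hBX.trans hXW) (hBW (hQA hx))
      refine hev ▸ Subgroup.mul_mem _ (Subgroup.mem_sup_left (Subgroup.mem_sup_left ⟨he, ?_⟩)) (Subgroup.mem_sup_right hv)
      rw [show e = x * v⁻¹ by rw [← hev]; group]
      exact Y.mul_mem (Subgroup.mem_sup_left hx) (Subgroup.mem_sup_right (W.inv_mem hv))
    have hEW : E ⊓ W ≤ M := by
      rintro e ⟨he, heW⟩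
      obtain ⟨d, hd, m, hm, rfl⟩ := CfsgLib.CoprimeAction.exists_mul_of_mem_sup (A := B ⊓ Y) (K := M)
        ((inf_le_left.trans hBX).trans hXM) he
      refine M.mul_mem (hDM ⟨hd.1, ?_⟩) hm
      have := W.mul_mem heW (W.inv_mem (hMW hm))
      rwa [mul_inv_cancel_right] at this
    have hEY : E ≤ Y := sup_le inf_le_right (hMW.trans le_sup_right)
    -- a Sylow `q`-subgroup of `E` is conjugate to `Q`
    obtain ⟨Q₁⟩ : Nonempty (Sylow q E) := inferInstance
    set Q' := (Q₁ : Subgroup E).map E.subtype with hQ'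
    have hQ'E : Q' ≤ E := Subgroup.map_subtype_le _
    have hYc : Nat.card Y = Nat.card Q * Nat.card W := by
      have hinf : Q ⊓ W = ⊥ := CfsgLib.CoprimeAction.inf_eq_bot_of_coprime (hcop hW)
      have h := CfsgLib.Factorization.card_mul_set Q W
      have hset : ((Q : Set G) * (W : Set G)) = (Y : Set G) := by
        rw [hY, ← Subgroup.coe_mul_of_left_le_normalizer_right _ _ hQW]
      rw [hset, hinf, Subgroup.card_bot, mul_one] at h
      exact h
    have hQY : Q ≤ Y := le_sup_left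
    obtain ⟨k, hk⟩ := IsPGroup.iff_card.1 hQ
    obtain ⟨l, hl⟩ := IsPGroup.iff_card.1 hW
    have hqY : (Nat.card Y).factorization q = k := by
      rw [hYc, hk, hl, Nat.factorization_mul (pow_ne_zero _ (Fact.out : q.Prime).ne_zero)
        (pow_ne_zero _ (Fact.out : r.Prime).ne_zero), Finsupp.add_apply, (Fact.out : q.Prime).factorization_pow,
        (Fact.out : r.Prime).factorization_pow, Finsupp.single_eq_same, Finsupp.single_eq_of_ne hqr, add_zero]
    have hQ'c : Nat.card Q' = Nat.card Q := by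
      refine le_antisymm ?_ ?_
      · rw [hk]
        obtain ⟨i, hi⟩ := IsPGroup.iff_card.1 (Q₁.2.map E.subtype)
        have hd : Nat.card Q' ∣ Nat.card Y := Subgroup.card_dvd_of_le (hQ'E.trans hEY)
        rw [hQ', hi] at hd ⊢
        refine Nat.pow_le_pow_right (Fact.out : q.Prime).pos ?_
        have := ((Fact.out : q.Prime).pow_dvd_iff_le_factorization Nat.card_pos.ne').1 hd
        omega
      · refine Nat.le_of_dvd Nat.card_pos ?_
        rw [hk, hQ', Subgroup.card_map_of_injective E.subtype_injective, Sylow.card_eq_multiplicity]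
        refine pow_dvd_pow q ?_
        refine ((Fact.out : q.Prime).pow_dvd_iff_le_factorization Nat.card_pos.ne').1 ?_
        have hcover : Y ≤ E ⊔ W := sup_le hEcover le_sup_right
        have hmul : Nat.card Y ∣ Nat.card E * Nat.card W := by
          have h := CfsgLib.Factorization.card_mul_set E W
          have hset : ((E : Set G) * (W : Set G)) = ((E ⊔ W : Subgroup G) : Set G) :=
            (Subgroup.coe_mul_of_left_le_normalizer_right _ _ ((hEY.trans hYX).trans hXW)).symm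
          rw [hset] at h
          exact (Subgroup.card_dvd_of_le hcover).trans ⟨_, h.symm⟩
        rw [← hk]
        refine Nat.Coprime.dvd_of_dvd_mul_right (hcop hW) ?_
        exact (Subgroup.card_dvd_of_le hQY).trans hmul
    -- conjugate inside `Y`
    obtain ⟨x, hxW, hx⟩ : ∃ x ∈ W, Q.map (MulAut.conj x).toMonoidHom = Q' := by
      let SQ : Sylow q Y := Sylow.ofCard (Q.subgroupOf Y) (by
        rw [Nat.card_congr (Subgroup.subgroupOfEquivOfLe hQY).toEquiv, hk, hqY])
      let SQ' : Sylow q Y := Sylow.ofCard (Q'.subgroupOf Y) (by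
        rw [Nat.card_congr (Subgroup.subgroupOfEquivOfLe (hQ'E.trans hEY)).toEquiv, hQ'c, hk, hqY])
      obtain ⟨g, hg⟩ := MulAction.exists_smul_eq (↥Y) SQ SQ'
      have hg' : Q.map (MulAut.conj (g : G)).toMonoidHom = Q' := by
        have h := congrArg (fun S : Sylow q Y => (S : Subgroup Y).map Y.subtype) hg
        simp only [SQ, SQ', Sylow.coe_subgroup_smul, Sylow.coe_ofCard] at h
        rw [Subgroup.map_subgroupOf_eq_of_le (hQ'E.trans hEY)] at h
        rw [← h]
        ext z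
        constructor
        · rintro ⟨u, hu, rfl⟩
          exact ⟨_, Subgroup.smul_mem_pointwise_smul (⟨u, hQY hu⟩ : Y) (MulAut.conj g) (Q.subgroupOf Y)
            (Subgroup.mem_subgroupOf.2 hu), rfl⟩
        · rintro ⟨_, ⟨u, hu, rfl⟩, rfl⟩
          exact ⟨u, Subgroup.mem_subgroupOf.1 hu, rfl⟩
      obtain ⟨y, hy, v, hv, hyv⟩ := CfsgLib.CoprimeAction.exists_mul_of_mem_sup (A := Q) (K := W) hQW g.2
      refine ⟨y * v * y⁻¹, conj_mem_of_le hQW hy hv, ?_⟩
      have hy1 : Q.map (MulAut.conj y).toMonoidHom = Q :=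
        Subgroup.mem_normalizer_iff_map_conj_eq.1 (Subgroup.le_normalizer hy)
      rw [← hg', ← hyv]
      conv_rhs => rw [show MulAut.conj (y * v) = MulAut.conj (y * v * y⁻¹) * MulAut.conj y by
        rw [← map_mul, inv_mul_cancel_right]]
      conv_rhs => rw [show ((MulAut.conj (y * v * y⁻¹) * MulAut.conj y : MulAut G)).toMonoidHom =
        (MulAut.conj (y * v * y⁻¹)).toMonoidHom.comp (MulAut.conj y).toMonoidHom from rfl, ← Subgroup.map_map,
        hy1]
    have hkey : ∀ z ∈ B, ∀ v ∈ W, (x⁻¹ * z * x) * v⁻¹ ∈ A → ∀ q' ∈ Q, ⁅q', v⁆ ∈ M := by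
      intro z hz v hv hzv q' hq'
      set t := x⁻¹ * z * x * v⁻¹ with ht
      have h1 : x * q' * x⁻¹ ∈ E := hQ'E (hx.le ⟨q', hq', rfl⟩)
      have h2 := conj_mem_of_le hBE hz h1
      -- `t v q' (t v)⁻¹` lies in the conjugate of `E`
      have hq'' : t * q' * t⁻¹ ∈ Q := conj_mem_of_le hQn hzv hq'
      have h3 : x * (t * q' * t⁻¹) * x⁻¹ ∈ E := hQ'E (hx.le ⟨_, hq'', rfl⟩)
      have h4 : x * t * ⁅v, q'⁆ * t⁻¹ * x⁻¹ ∈ E := by
        rw [show x * t * ⁅v, q'⁆ * t⁻¹ * x⁻¹ = z * (x * q' * x⁻¹) * z⁻¹ * (x * (t * q' * t⁻¹) * x⁻¹)⁻¹ by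
          rw [ht, commutatorElement_def]; group]
        exact E.mul_mem h2 (E.inv_mem h3)
      have hcW : ⁅v, q'⁆ ∈ W := hlt.le (Subgroup.commutator_mem_commutator hv hq')
      have h5 : x * t * ⁅v, q'⁆ * t⁻¹ * x⁻¹ ∈ W := by
        rw [show x * t * ⁅v, q'⁆ * t⁻¹ * x⁻¹ = x * (t * ⁅v, q'⁆ * t⁻¹) * x⁻¹ by group]
        exact W.mul_mem (W.mul_mem hxW (conj_mem_of_le hAW hzv hcW)) (W.inv_mem hxW)
      have h6 := hEW ⟨h4, h5⟩
      have htX : (x * t)⁻¹ ∈ X := X.inv_mem (X.mul_mem (Subgroup.mem_sup_right hxW) (Subgroup.mem_sup_left hzv))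
      have h7 := conj_mem_of_le hXM htX h6
      rw [show (x * t)⁻¹ * (x * t * ⁅v, q'⁆ * t⁻¹ * x⁻¹) * (x * t)⁻¹⁻¹ = ⁅v, q'⁆ by group] at h7
      rw [← commutatorElement_inv]
      exact M.inv_mem h7
    have hxC : x ∈ C := by
      refine ⟨hxW, fun y hy => ?_⟩
      have hyA := hPA hy
      set v := y⁻¹ * x⁻¹ * y * x with hv
      have hvW : v ∈ W := W.mul_mem (by
        simpa using conj_mem_of_le hAW (A.inv_mem hyA) (W.inv_mem hxW)) hxW
      have h := hkey y (Subgroup.mem_sup_left hy) v hvW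
        (by rw [show x⁻¹ * y * x * v⁻¹ = y by rw [hv]; group]; exact hyA)
      have hvM : v ∈ M := hfixQ.le ⟨hvW, h⟩
      rw [show ⁅y, x⁆ = (y * x) * v * (y * x)⁻¹ by rw [hv, commutatorElement_def]; group]
      exact conj_mem_of_le hXM (X.mul_mem (Subgroup.mem_sup_left hyA) (Subgroup.mem_sup_right hxW)) hvM
    have hxC' : x⁻¹ * w ∈ C' := by
      refine ⟨W.mul_mem (W.inv_mem hxW) hwW, ?_⟩
      rintro _ ⟨y, hy, rfl⟩
      set u := x⁻¹ * w with hu
      set y' := a * y * a⁻¹ with hy'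
      have hy'A : y' ∈ A := A.mul_mem (A.mul_mem ha (hPA hy)) (A.inv_mem ha)
      have huW : u ∈ W := W.mul_mem (W.inv_mem hxW) hwW
      set v := y'⁻¹ * u * y' * u⁻¹ with hv
      have hvW : v ∈ W := W.mul_mem (by
        simpa using conj_mem_of_le hAW (A.inv_mem hy'A) huW) (W.inv_mem huW)
      have h := hkey (b * y * b⁻¹) (Subgroup.mem_sup_right ⟨y, hy, rfl⟩) v hvW
        (by rw [show x⁻¹ * (b * y * b⁻¹) * x * v⁻¹ = y' by rw [hv, hu, hy', hb]; group]; exact hy'A)
      have hvM : v ∈ M := hfixQ.le ⟨hvW, h⟩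
      rw [show ⁅y', u⁆ = y' * v⁻¹ * y'⁻¹ by rw [hv, commutatorElement_def]; group]
      exact conj_mem_of_le hMA hy'A (M.inv_mem hvM)
    exact hw x hxC (x⁻¹ * w) hxC' (by group)
  · -- `B` contains `W`
    have hDW : D ≤ W := inf_le_right
    have hWD : W ≤ Subgroup.normalizer ((D ⊔ M : Subgroup G) : Set G) := by
      rw [Subgroup.le_normalizer_iff]
      intro v hv d hd
      rw [show v * d * v⁻¹ = ⁅v, d⁆ * d by rw [commutatorElement_def]; group]
      exact Subgroup.mul_mem _ (Subgroup.mem_sup_right (hcomm v hv d (sup_le hDW hMW hd))) hd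
    have hBDM : B ≤ Subgroup.normalizer ((D ⊔ M : Subgroup G) : Set G) := fun x hx => by
      rw [Subgroup.mem_normalizer_iff_map_conj_eq, Subgroup.map_sup,
        Subgroup.mem_normalizer_iff_map_conj_eq.1 (hBD hx),
        Subgroup.mem_normalizer_iff_map_conj_eq.1 (hXM (hBX hx))]
    rcases hmaxM (D ⊔ M) le_sup_right (sup_le hDW hMW) (hBW.trans (sup_le hBDM hWD)) hWD with h | h
    · exact absurd (le_sup_left.trans h.le) hDM
    have hMD : M ≤ Subgroup.normalizer (D : Set G) := by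
      rw [Subgroup.le_normalizer_iff]
      intro m hm d hd
      rwa [Subgroup.mem_centralizer_iff.1 (hMZ (hDW hd)) m hm, mul_inv_cancel_right]
    have hWDn : W ≤ Subgroup.normalizer (D : Set G) :=
      h.ge.trans (sup_le Subgroup.le_normalizer hMD)
    have hAD : A ≤ Subgroup.normalizer (D : Set G) := hBW.trans (sup_le hBD hWDn)
    have hWleD : W ≤ D := by
      refine hlt.ge.trans ?_
      rw [hW₀, Subgroup.commutator_le]
      intro v hv x hx
      obtain ⟨d, hd, m, hm, rfl⟩ := CfsgLib.CoprimeAction.exists_mul_of_mem_sup (A := D) (K := M)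
        (hDW.trans hMWn) (h.ge hv)
      have hmx : ⁅m, x⁆ = 1 := commutatorElement_eq_one_iff_mul_comm.2
        (Subgroup.mem_centralizer_iff.1 (hQM hx) m hm)
      rw [show ⁅d * m, x⁆ = d * ⁅m, x⁆ * x * d⁻¹ * x⁻¹ by simp only [commutatorElement_def]; group, hmx, mul_one]
      have := D.mul_mem hd (conj_mem_of_le hAD (hQA hx) (D.inv_mem hd))
      simpa [mul_assoc] using this
    have hWB : W ≤ B := hWleD.trans inf_le_left
    have hAB : A ≤ B := hBW.trans (sup_le le_rfl hWB)
    have hbB : b ∈ B := B.mul_mem (hWB hwW) (hAB ha)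
    have hWsol : Group.IsSolvable ↥W := by
      haveI := hW.isNilpotent
      infer_instance
    have hBsol : Group.IsSolvable ↥B := by
      haveI : (W.subgroupOf B).Normal := ⟨fun v hv x => Subgroup.mem_subgroupOf.2
        (conj_mem_of_le hXW (hBX x.2) (Subgroup.mem_subgroupOf.1 hv))⟩
      haveI := hWsol
      haveI := hAsol
      have h1 : Group.IsSolvable ↥(W.subgroupOf B) :=
        Group.isSolvable_of_isSolvable_injective (f := (Subgroup.subgroupOfEquivOfLe hWB).toMonoidHom)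
          (Subgroup.subgroupOfEquivOfLe hWB).injective
      have h2 : Group.IsSolvable (↥B ⧸ W.subgroupOf B) := by
        refine Group.isSolvable_of_surjective (f := (QuotientGroup.mk' (W.subgroupOf B)).comp (Subgroup.inclusion hAB)) ?_
        intro v
        obtain ⟨z, rfl⟩ := QuotientGroup.mk'_surjective (W.subgroupOf B) v
        obtain ⟨e, he, u, hu, heu⟩ := CfsgLib.CoprimeAction.exists_mul_of_mem_sup (A := A) (K := W) hAW (hBX z.2)
        refine ⟨⟨e, he⟩, QuotientGroup.eq.2 (Subgroup.mem_subgroupOf.2 ?_)⟩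
        show e⁻¹ * (z : G) ∈ W
        rw [← heu, inv_mul_cancel_left]; exact hu
      exact Group.isSolvable_of_ker_le_range (W.subgroupOf B).subtype (QuotientGroup.mk' (W.subgroupOf B))
        (by rw [QuotientGroup.ker_mk', Subgroup.range_subtype])
    have hWA : W ≤ A := hWB.trans (hmax B hAB hBsol ⟨b, hbB, hB⟩).le
    intro x hx
    refine Subgroup.mem_centralizer_iff.2 fun v hv => ?_
    have h1 : ⁅v, x⁆ ∈ Q := by
      rw [commutatorElement_def]
      exact Q.mul_mem (conj_mem_of_le hQn (hWA hv) hx) (Q.inv_mem hx)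
    have h2 : ⁅v, x⁆ ∈ W := hlt.le (Subgroup.commutator_mem_commutator hv hx)
    have h3 : ⁅v, x⁆ ∈ Q ⊓ W := ⟨h1, h2⟩
    rw [CfsgLib.CoprimeAction.inf_eq_bot_of_coprime (hcop hW), Subgroup.mem_bot] at h3
    exact commutatorElement_eq_one_iff_mul_comm.1 h3

/-- The Fitting subgroup of `A` times a nilpotent `A`-invariant subgroup is nilpotent. -/
theorem fitting_sup_nilpotent [Finite G] [Fact p.Prime] (hhalf : HalfBound.{u} p) (P : Subgroup G)
    (hP : Nat.card P = p) (A : Subgroup G)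
    (hA : Group.IsSolvable ↥A ∧ ∃ a ∈ A, A = P ⊔ P.map (MulAut.conj a).toMonoidHom)
    (hmax : ∀ B : Subgroup G, A ≤ B → Group.IsSolvable ↥B →
      (∃ b ∈ B, B = P ⊔ P.map (MulAut.conj b).toMonoidHom) → B = A)
    (V : Subgroup G) (hV : Group.IsNilpotent ↥V) (hAV : A ≤ Subgroup.normalizer (V : Set G)) :
    Group.IsNilpotent ↥((Cfsg.fittingSubgroup ↥A).map A.subtype ⊔ V) := by
  classical
  obtain ⟨hAsol, a, ha, hAeq⟩ := hA
  let F : ℕ → Subgroup G := fun q => (Cfsg.pCore q ↥A).map A.subtype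
  let U : ℕ → Subgroup G := fun q => (Cfsg.pCore q ↥V).map V.subtype
  have hFA : ∀ q, F q ≤ A := fun q => Subgroup.map_subtype_le _
  have hFn : ∀ q, A ≤ Subgroup.normalizer (F q : Set G) := fun q => by
    rw [Subgroup.le_normalizer_iff]
    rintro x hx _ ⟨y, hy, rfl⟩
    haveI := CfsgLib.Components.pCore_characteristic (G := ↥A) q
    exact ⟨⟨x, hx⟩ * y * ⟨x, hx⟩⁻¹, (inferInstance : (Cfsg.pCore q ↥A).Normal).conj_mem y hy _, rfl⟩
  have hUn : ∀ q, ∀ {X : Subgroup G}, X ≤ Subgroup.normalizer (V : Set G) → X ≤ Subgroup.normalizer (U q : Set G) := fun q X hX => by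
    rw [Subgroup.le_normalizer_iff]
    rintro x hx _ ⟨y, hy, rfl⟩
    haveI := CfsgLib.Components.pCore_characteristic (G := ↥V) q
    let c := V.normalizerMonoidHom ⟨x, hX hx⟩
    exact ⟨c y, (SetLike.ext_iff.1 ((inferInstance : (Cfsg.pCore q ↥V).Characteristic).fixed c) y).2 hy, rfl⟩
  have hFp : ∀ q, IsPGroup q ↥(F q) := fun q => (CfsgLib.Components.pCore_isPGroup q).map _
  have hUp : ∀ q, IsPGroup q ↥(U q) := fun q => (CfsgLib.Components.pCore_isPGroup q).map _
  have hFU : ∀ q r : ℕ, q.Prime → r.Prime → q ≠ r → F q ≤ Subgroup.centralizer (U r : Set G) := fun q r hq hr hne => by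
    haveI := Fact.mk hq
    haveI := Fact.mk hr
    exact centralizes hhalf P hP A hAsol a ha hAeq hmax hne (F q) (hFA q) (hFn q) (hFp q) _ (U r) rfl (hUp r)
      (hUn r hAV)
  set X := (Cfsg.fittingSubgroup ↥A).map A.subtype ⊔ V with hX
  have hVeq : ∀ {H : Subgroup G}, (∀ r : ℕ, r.Prime → U r ≤ H) → V ≤ H := fun {H} hH => by
    haveI := hV
    haveI : Group.IsNilpotent ↥(⊤ : Subgroup ↥V) := Group.nilpotent_of_mulEquiv Subgroup.topEquiv.symm
    have h := (CfsgLib.Components.nilpotent_le_iSup_pCore (G := ↥V) (N := ⊤) inferInstance)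
    have h2 := Subgroup.map_mono (f := V.subtype) h
    rw [← MonoidHom.range_eq_map, Subgroup.range_subtype, Subgroup.map_iSup] at h2
    exact h2.trans (iSup_le fun q => hH q (Nat.prime_of_mem_primeFactors q.2))
  have hFeq : ∀ {H : Subgroup G}, (∀ r : ℕ, r.Prime → F r ≤ H) → (Cfsg.fittingSubgroup ↥A).map A.subtype ≤ H :=
    fun {H} hH => by
      rw [CfsgLib.Components.fittingSubgroup_eq_iSup, Subgroup.map_iSup]
      exact iSup_le fun q => hH q (Nat.prime_of_mem_primeFactors q.2)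
  have hFX : ∀ q : ℕ, q.Prime → F q ≤ X := fun q hq => by
    haveI := Fact.mk hq
    exact (Subgroup.map_mono (CfsgLib.Components.pCore_le_fittingSubgroup q)).trans le_sup_left
  have hUX : ∀ q, U q ≤ X := fun q => (Subgroup.map_subtype_le _).trans le_sup_right
  let K : ℕ → Subgroup G := fun q => F q ⊔ U q
  have hKp : ∀ q, q.Prime → IsPGroup q ↥(K q) := fun q hq =>
    IsPGroup.to_sup_of_normal_right' (hFp q) (hUp q) ((hFA q).trans (hUn q hAV))
  have hFF : ∀ q r : ℕ, q.Prime → r.Prime → q ≠ r → F q ≤ Subgroup.centralizer (F r : Set G) := fun q r hq hr hne => by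
    haveI := Fact.mk hq
    haveI := Fact.mk hr
    intro x hx
    obtain ⟨x, hx', rfl⟩ := hx
    refine Subgroup.mem_centralizer_iff.2 ?_
    rintro _ ⟨y, hy, rfl⟩
    exact congrArg A.subtype (Subgroup.commute_of_normal_of_disjoint _ _ inferInstance inferInstance
      (disjoint_iff.2 (CfsgLib.CoprimeAction.inf_eq_bot_of_coprime (IsPGroup.coprime_card_of_ne r q hne.symm _ _
        (CfsgLib.Components.pCore_isPGroup r) (CfsgLib.Components.pCore_isPGroup q)))) y x hy hx').eq
  have hUU : ∀ q r : ℕ, q.Prime → r.Prime → q ≠ r → U q ≤ Subgroup.centralizer (U r : Set G) := fun q r hq hr hne => by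
    haveI := Fact.mk hq
    haveI := Fact.mk hr
    intro x hx
    obtain ⟨x, hx', rfl⟩ := hx
    refine Subgroup.mem_centralizer_iff.2 ?_
    rintro _ ⟨y, hy, rfl⟩
    exact congrArg V.subtype (Subgroup.commute_of_normal_of_disjoint _ _ inferInstance inferInstance
      (disjoint_iff.2 (CfsgLib.CoprimeAction.inf_eq_bot_of_coprime (IsPGroup.coprime_card_of_ne r q hne.symm _ _
        (CfsgLib.Components.pCore_isPGroup r) (CfsgLib.Components.pCore_isPGroup q)))) y x hy hx').eq
  have hKc : ∀ q r : ℕ, q.Prime → r.Prime → q ≠ r → K q ≤ Subgroup.centralizer (K r : Set G) := fun q r hq hr hne => by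
    refine sup_le ?_ ?_ <;> rw [Subgroup.le_centralizer_iff] <;> refine sup_le ?_ ?_ <;> rw [Subgroup.le_centralizer_iff]
    · exact hFF q r hq hr hne
    · exact hFU q r hq hr hne
    · exact Subgroup.le_centralizer_iff.1 (hFU r q hr hq hne.symm)
    · exact hUU q r hq hr hne
  have hKX : ∀ q, q.Prime → K q ≤ X := fun q hq => sup_le (hFX q hq) (hUX q)
  have hXgen : ∀ {H : Subgroup G}, (∀ r : ℕ, r.Prime → K r ≤ H) → X ≤ H := fun {H} hH =>
    sup_le (hFeq fun r hr => le_sup_left.trans (hH r hr)) (hVeq fun r hr => le_sup_right.trans (hH r hr))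
  have htop : Cfsg.fittingSubgroup ↥X = ⊤ := by
    rw [eq_top_iff]
    intro x _
    have h : X ≤ (Cfsg.fittingSubgroup ↥X).map X.subtype := hXgen fun q hq y hy => by
      haveI := Fact.mk hq
      have hn : X ≤ Subgroup.normalizer (K q : Set G) := hXgen fun r hr => by
        rcases eq_or_ne r q with rfl | hne
        · exact Subgroup.le_normalizer
        · exact (hKc r q hr hq hne).trans (Subgroup.centralizer_le_normalizer _)
      haveI hKn : ((K q).subgroupOf X).Normal := ⟨fun z hz g => Subgroup.mem_subgroupOf.2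
        (conj_mem_of_le hn g.2 (Subgroup.mem_subgroupOf.1 hz))⟩
      have hnil : Group.IsNilpotent ↥((K q).subgroupOf X) :=
        ((hKp q hq).of_equiv (Subgroup.subgroupOfEquivOfLe (hKX q hq)).symm).isNilpotent
      exact ⟨⟨y, hKX q hq hy⟩, CfsgLib.Components.le_fittingSubgroup hKn hnil (Subgroup.mem_subgroupOf.2 hy), rfl⟩
    obtain ⟨y, hy, he⟩ := h x.2
    exact (Subtype.ext he : y = x) ▸ hy
  haveI : Group.IsNilpotent ↥(Cfsg.fittingSubgroup ↥X) := CfsgLib.Components.fittingSubgroup_isNilpotent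
  exact Group.nilpotent_of_mulEquiv ((MulEquiv.subgroupCongr htop).trans Subgroup.topEquiv)

end CfsgLib.TwoConjGen
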